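import Cfsg.Agent.FormConj.Unitary
import Mathlib.LinearAlgebra.Matrix.SchurComplement

/-!
Correcting the determinant of a conjugating unitary element.
-/

set_option autoImplicit false

open Matrix

namespace CfsgLib.FormConj

variable {K : Type*} [Field K] [Finite K] [CharP K 2] {n : ℕ} {θ : K →+* K}

/-- A unitary involution `≠ 1` commutes with unitary elements of every norm-one determinant. -/
theorem exists_commuting_det (hθ : ∀ a, θ (θ a) = a) (hne : θ ≠ RingHom.id K) {A : Matrix (Fin n) (Fin n) K}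
    (hA : dag θ A * A = 1) (hA2 : A * A = 1) (hA1 : A ≠ 1) {δ : K} (hδ : θ δ * δ = 1) :
    ∃ z : Matrix (Fin n) (Fin n) K, dag θ z * z = 1 ∧ z * A = A * z ∧ z.det = δ := by
  obtain ⟨N, hNdef⟩ : ∃ N, N = A - 1 := ⟨_, rfl⟩
  have hdA : dag θ A = A := by
    calc dag θ A = dag θ A * (A * A) := by rw [hA2, Matrix.mul_one]
      _ = A := by rw [← Matrix.mul_assoc, hA, Matrix.one_mul]
  have hNs : dag θ N = N := by
    rw [hNdef]
    ext i j
    have := congrFun (congrFun hdA i) j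
    simp only [dag, Matrix.transpose_apply, Matrix.map_apply, Matrix.sub_apply, map_sub] at this ⊢
    rw [this]
    congr 1
    by_cases h : i = j
    · subst h; simp
    · simp [h, Ne.symm h]
  have hN2 : N * N = 0 := by
    rw [hNdef, Matrix.sub_mul, Matrix.mul_sub, hA2, Matrix.mul_one, Matrix.one_mul]
    ext i j
    simp only [Matrix.sub_apply, Matrix.zero_apply]
    linear_combination (1 : Matrix (Fin n) (Fin n) K) i j * CharTwo.two_eq_zero (R := K) -
      A i j * CharTwo.two_eq_zero (R := K)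
  have hN0 : N ≠ 0 := fun h => hA1 (sub_eq_zero.1 (hNdef ▸ h))
  let H : (Fin n → K) → (Fin n → K) → K := fun u v => (θ ∘ u) ⬝ᵥ v
  have hHN : ∀ u v, H (N *ᵥ u) v = H u (N *ᵥ v) := fun u v => by
    show (θ ∘ (N *ᵥ u)) ⬝ᵥ v = (θ ∘ u) ⬝ᵥ (N *ᵥ v)
    rw [show θ ∘ (N *ᵥ u) = N.map θ *ᵥ (θ ∘ u) from funext fun i => RingHom.map_mulVec θ N u i,
      ← Matrix.vecMul_transpose, ← Matrix.dotProduct_mulVec]
    conv_rhs => rw [← hNs, dag]
  obtain ⟨u, hu⟩ : ∃ u, H u (N *ᵥ u) ≠ 0 := by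
    by_contra h
    push Not at h
    obtain ⟨c, hc⟩ : ∃ c, θ c ≠ c := by
      by_contra h'
      push Not at h'
      exact hne (RingHom.ext h')
    apply hN0
    refine Matrix.ext_of_mulVec_single fun i => ?_
    rw [Matrix.zero_mulVec]
    set v : Fin n → K := Pi.single i 1
    refine dotProduct_eq_zero _ fun w => ?_
    have key : ∀ x y, H x (N *ᵥ y) + H y (N *ᵥ x) = 0 := fun x y => by
      have := h (x + y)
      simp only [H] at this ⊢
      rw [show θ ∘ (x + y) = θ ∘ x + θ ∘ y from funext fun k => map_add θ _ _, Matrix.mulVec_add, add_dotProduct,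
        dotProduct_add, dotProduct_add, show (θ ∘ x) ⬝ᵥ (N *ᵥ x) = 0 from h x,
        show (θ ∘ y) ⬝ᵥ (N *ᵥ y) = 0 from h y] at this
      linear_combination this
    set x : Fin n → K := θ ∘ w
    have h1 := key x v
    have h2 := key (c • x) v
    simp only [H] at h1 h2
    rw [show θ ∘ (c • x) = θ c • (θ ∘ x) from funext fun k => map_mul θ _ _, Matrix.mulVec_smul, smul_dotProduct,
      dotProduct_smul, smul_eq_mul, smul_eq_mul] at h2
    have h3 : (θ c - c) * ((θ ∘ x) ⬝ᵥ (N *ᵥ v)) = 0 := by linear_combination h2 - c * h1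
    rw [show θ ∘ x = w from funext fun k => hθ (w k)] at h3
    rw [dotProduct_comm]
    exact (mul_eq_zero.1 h3).resolve_left (sub_ne_zero.2 hc)
  let U : Matrix (Fin n) (Fin 2) K := Matrix.of fun i j => ![u, N *ᵥ u] j i
  let U' : Matrix (Fin 2) (Fin n) K := (U.map θ)ᵀ
  let S : Matrix (Fin 2) (Fin 2) K := !![0, 0; 1, 0]
  have hNU : N * U = U * S := by
    ext i j
    fin_cases j
    · simp [U, S, Matrix.mul_apply, Fin.sum_univ_two, Matrix.mulVec, dotProduct]
    · show (N *ᵥ (N *ᵥ u)) i = _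
      rw [Matrix.mulVec_mulVec, hN2, Matrix.zero_mulVec]
      simp [U, S, Matrix.mul_apply, Fin.sum_univ_two]
  have hU'N : U' * N = (S.map θ)ᵀ * U' := by
    show (U.map θ)ᵀ * N = (S.map θ)ᵀ * (U.map θ)ᵀ
    rw [← Matrix.transpose_mul, ← Matrix.map_mul, ← hNU, Matrix.map_mul, Matrix.transpose_mul]
    conv_lhs => rw [← hNs, dag]
  obtain ⟨G, hGdef⟩ : ∃ G, G = U' * U := ⟨_, rfl⟩
  have hGdet : IsUnit G.det := by
    have e10 : G 1 0 = H u (N *ᵥ u) := by rw [← hHN, hGdef]; rfl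
    have e01 : G 0 1 = H u (N *ᵥ u) := by rw [hGdef]; rfl
    have e11 : G 1 1 = 0 := by
      rw [hGdef]
      show H (N *ᵥ u) (N *ᵥ u) = 0
      rw [hHN, Matrix.mulVec_mulVec, hN2, Matrix.zero_mulVec]
      exact dotProduct_zero _
    rw [Matrix.det_fin_two, e10, e01, e11, mul_zero, zero_sub]
    exact (neg_ne_zero.2 (mul_ne_zero hu hu)).isUnit
  have hGs : (G.map θ)ᵀ = G := by
    rw [hGdef, Matrix.map_mul, Matrix.transpose_mul]
    congr 1
    show (((U.map θ)ᵀ).map θ)ᵀ = U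
    ext i j; simp [hθ]
  have hGS : G * S = (S.map θ)ᵀ * G := by
    rw [hGdef, Matrix.mul_assoc, ← hNU, ← Matrix.mul_assoc, hU'N, Matrix.mul_assoc]
  obtain ⟨P, hPdef⟩ : ∃ P, P = U * G⁻¹ * U' := ⟨_, rfl⟩
  have hP2 : P * P = P := by
    calc P * P = U * (G⁻¹ * (U' * U) * G⁻¹) * U' := by rw [hPdef]; simp only [Matrix.mul_assoc]
      _ = P := by rw [← hGdef, Matrix.nonsing_inv_mul _ hGdet, Matrix.one_mul, hPdef]
  have hPs : dag θ P = P := by
    rw [hPdef, dag, Matrix.map_mul, Matrix.map_mul, Matrix.transpose_mul, Matrix.transpose_mul, Matrix.mul_assoc]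
    have e1 : (U'.map θ)ᵀ = U := by ext i j; simp [U', hθ]
    have e2 : ((G⁻¹).map θ)ᵀ = G⁻¹ := by
      refine (Matrix.inv_eq_left_inv ?_).symm
      conv_lhs => arg 2; rw [← hGs]
      rw [← Matrix.transpose_mul, ← Matrix.map_mul, Matrix.mul_nonsing_inv _ hGdet, Matrix.map_one _ (map_zero θ) (map_one θ),
        Matrix.transpose_one]
    rw [e1, e2]
  have hPN : P * N = N * P := by
    have e : G⁻¹ * (S.map θ)ᵀ = S * G⁻¹ := by
      calc G⁻¹ * (S.map θ)ᵀ = G⁻¹ * ((S.map θ)ᵀ * G) * G⁻¹ := by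
            rw [Matrix.mul_assoc G⁻¹, Matrix.mul_assoc, Matrix.mul_nonsing_inv _ hGdet, Matrix.mul_one]
        _ = S * G⁻¹ := by rw [← hGS, Matrix.nonsing_inv_mul_cancel_left _ _ hGdet]
    calc P * N = U * (G⁻¹ * (S.map θ)ᵀ) * U' := by rw [hPdef, Matrix.mul_assoc _ U', hU'N]; simp only [Matrix.mul_assoc]
      _ = (U * S) * G⁻¹ * U' := by rw [e]; simp only [Matrix.mul_assoc]
      _ = N * P := by rw [← hNU, hPdef]; simp only [Matrix.mul_assoc]
  obtain ⟨μ, hμ⟩ := (Finite.injective_iff_surjective.1 (frobenius K 2).injective) δ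
  rw [frobenius_def] at hμ
  have hμn : θ μ * μ = 1 := (frobenius K 2).injective (by
    rw [map_one, frobenius_def, mul_pow, ← map_pow, hμ, hδ])
  refine ⟨1 + (μ - 1) • P, ?_, ?_, ?_⟩
  · rw [dag_add, dag_one, dag_smul, hPs, Matrix.add_mul, Matrix.mul_add, Matrix.mul_add, Matrix.one_mul,
      Matrix.mul_one, Matrix.one_mul, Matrix.smul_mul, Matrix.mul_smul, hP2, smul_smul]
    rw [show (1 : Matrix (Fin n) (Fin n) K) + (μ - 1) • P + (θ (μ - 1) • P + (θ (μ - 1) * (μ - 1)) • P) =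
      1 + ((μ - 1) + θ (μ - 1) + θ (μ - 1) * (μ - 1)) • P by rw [add_smul, add_smul]; abel,
      show (μ - 1) + θ (μ - 1) + θ (μ - 1) * (μ - 1) = 0 by rw [map_sub, map_one]; linear_combination hμn,
      zero_smul, add_zero]
  · rw [Matrix.add_mul, Matrix.mul_add, Matrix.one_mul, Matrix.mul_one, Matrix.smul_mul, Matrix.mul_smul,
      show A = N + 1 by rw [hNdef, sub_add_cancel], Matrix.mul_add, Matrix.add_mul, hPN, Matrix.one_mul, Matrix.mul_one]
  · rw [hPdef, Matrix.mul_assoc, ← Matrix.smul_mul, Matrix.det_one_add_mul_comm, Matrix.mul_smul, Matrix.mul_assoc,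
      ← hGdef, Matrix.nonsing_inv_mul _ hGdet, show (1 : Matrix (Fin 2) (Fin 2) K) + (μ - 1) • 1 = μ • 1 by
        rw [sub_smul, one_smul, add_sub_cancel], Matrix.det_smul, Matrix.det_one, mul_one, Fintype.card_fin, hμ]

/-- In characteristic two, similar unitary involutions are conjugate in the special unitary group. -/
theorem exists_special_conj (hθ : ∀ a, θ (θ a) = a) (hne : θ ≠ RingHom.id K) {A B P : Matrix (Fin n) (Fin n) K}
    (hA : dag θ A * A = 1) (hB : dag θ B * B = 1) (hA2 : A * A = 1) (hA1 : A ≠ 1) (hP : IsUnit P.det)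
    (hPA : P * A = B * P) :
    ∃ g : Matrix (Fin n) (Fin n) K, dag θ g * g = 1 ∧ g.det = 1 ∧ g * A = B * g := by
  obtain ⟨g, hg, hgA⟩ := exists_unitary_conj hθ hne hA hB hP hPA
  have h := congrArg Matrix.det hg
  rw [Matrix.det_mul, det_dag, Matrix.det_one] at h
  obtain ⟨z, hz, hzA, hzd⟩ := exists_commuting_det hθ hne hA hA2 hA1 (δ := θ g.det) (by rw [hθ, mul_comm, h])
  refine ⟨g * z, ?_, by rw [Matrix.det_mul, hzd, mul_comm, h], ?_⟩
  · calc dag θ (g * z) * (g * z) = dag θ z * (dag θ g * g) * z := by rw [dag_mul]; simp only [Matrix.mul_assoc]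
      _ = 1 := by rw [hg, Matrix.mul_one, hz]
  · rw [Matrix.mul_assoc, hzA, ← Matrix.mul_assoc, hgA, Matrix.mul_assoc]

end CfsgLib.FormConj
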